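import Cfsg.Agent.H30.OZ.Tools
import Cfsg.Agent.H30.OZ.HeDat
import Cfsg.Agent.H30.OZ.HeMin
import Cfsg.Agent.H730.OZ.Asm

/-!
# The row of the Held group for S4842 (helper30)

The degree is `± 1` modulo 17; `2^10`, `27`, `25`, `343` do not divide it; it is at least 42.  The elements 8A
(centralizer of order 16), 4C, 5A, 7D, 7C, 2B have large values if 2, 5 or 7 divides the degree.
-/

set_option autoImplicit false
set_option maxRecDepth 100000

namespace Cfsg.Agent.H30.OZ.HeRow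

open Cfsg Cfsg.Spor.He Cfsg.Agent.SporadicB.HePerm Cfsg.Agent.FixBN.HeStab Cfsg.Agent.KFacts.He.Lv
open Cfsg.Agent.H732.VZ Cfsg.Agent.H30.OZ.HeDat
open Cfsg.Agent.H153.Zeros.He17 (W17 o17 card_cent_eq)
open Cfsg.Agent.H868.Dl.HeCls (W8 order_eight card_eight)
open Cfsg.Agent.H348.PPD.HeCent (U W order_U card_cent_U conj_pow_U dvd_card_W GW)

universe u

noncomputable instance instFintypeHe : Fintype Cfsg.Spor.He := Fintype.ofFinite _

theorem ncard : Nat.card Cfsg.Spor.He = 4030387200 := Cfsg.Agent.KFacts.He.Classes.card_he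

theorem pow_mod' {G : Type*} [Group G] {y : G} {o : ℕ} (ho : orderOf y = o) (k : ℕ) : y ^ k = y ^ (k % o) := by
  rw [← ho, pow_mod_orderOf]

theorem rat5 : ∀ k : ℕ, k.Coprime (orderOf (wd W5)) → IsConj (wd W5) (wd W5 ^ k) := by
  intro k hk
  rw [o5] at hk
  have c2 : IsConj (wd W5) (wd W5 ^ 2) := conj5
  have c4 : IsConj (wd W5) (wd W5 ^ 4) := c2.trans (by have := isConj_pow c2 2; rwa [← pow_mul] at this)
  have c3 : IsConj (wd W5) (wd W5 ^ 3) := c4.trans (by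
    have := isConj_pow c2 4
    rwa [← pow_mul, pow_mod' o5 (2 * 4)] at this)
  rw [pow_mod' o5 k]
  have h1 : k % 5 < 5 := Nat.mod_lt _ (by norm_num)
  have h2 : k % 5 ≠ 0 := fun h => by
    have h3 : 5 ∣ k := Nat.dvd_of_mod_eq_zero h
    have h4 := Nat.dvd_gcd h3 (dvd_refl 5)
    rw [hk] at h4
    norm_num at h4
  generalize k % 5 = m at h1 h2
  interval_cases m
  · exact absurd rfl h2
  · rw [pow_one]
  · exact c2
  · exact c3
  · exact c4

theorem rat8 : ∀ k : ℕ, k.Coprime (orderOf (wd W8)) → IsConj (wd W8) (wd W8 ^ k) := by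
  intro k hk
  rw [order_eight] at hk
  have c3 : IsConj (wd W8) (wd W8 ^ 3) := conj8_3
  have c5 : IsConj (wd W8) (wd W8 ^ 5) := conj8_5
  have c7 : IsConj (wd W8) (wd W8 ^ 7) := c3.trans (by
    have := isConj_pow c5 3
    rwa [← pow_mul, pow_mod' order_eight (5 * 3)] at this)
  rw [pow_mod' order_eight k]
  have h1 : k % 8 < 8 := Nat.mod_lt _ (by norm_num)
  have h2 : ¬ 2 ∣ k := fun h => by
    have h4 := Nat.dvd_gcd h (show 2 ∣ 8 by norm_num)
    rw [hk] at h4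
    norm_num at h4
  have h3 : ¬ 2 ∣ k % 8 := by omega
  generalize k % 8 = m at h1 h3
  interval_cases m
  all_goals first | (exfalso; omega) | skip
  · rw [pow_one]
  · exact c3
  · exact c5
  · exact c7

theorem rat4 : ∀ k : ℕ, k.Coprime (orderOf (wd W4)) → IsConj (wd W4) (wd W4 ^ k) := by
  intro k hk
  rw [o4] at hk
  rw [pow_mod' o4 k]
  have h1 : k % 4 < 4 := Nat.mod_lt _ (by norm_num)
  have h2 : ¬ 2 ∣ k := fun h => by
    have h4 := Nat.dvd_gcd h (show 2 ∣ 4 by norm_num)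
    rw [hk] at h4
    norm_num at h4
  have h3 : ¬ 2 ∣ k % 4 := by omega
  generalize k % 4 = m at h1 h3
  interval_cases m
  all_goals first | (exfalso; omega) | skip
  · rw [pow_one]
  · exact conj4

theorem rat2 : ∀ k : ℕ, k.Coprime (orderOf (wd [.d])) → IsConj (wd [.d]) (wd [.d] ^ k) := by
  intro k hk
  rw [o2] at hk
  rw [pow_mod' o2 k]
  have h2 : ¬ 2 ∣ k := fun h => by
    have h4 := Nat.dvd_gcd h (dvd_refl 2)
    rw [hk] at h4
    norm_num at h4
  rw [show k % 2 = 1 by omega, pow_one]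

theorem ratU : ∀ k : ℕ, k.Coprime (orderOf U) → IsConj U (U ^ k) := by
  intro k hk
  rw [order_U] at hk
  refine conj_pow_U fun h => ?_
  have h4 := Nat.dvd_gcd (Nat.dvd_of_mod_eq_zero h) (dvd_refl 7)
  rw [hk] at h4
  norm_num at h4

theorem quad7 : ∀ k : ℕ, k.Coprime (orderOf (wd W7)) → IsConj (wd W7) (wd W7 ^ k) ∨ IsConj (wd W7 ^ 6) (wd W7 ^ k) := by
  intro k hk
  rw [o7] at hk
  have c2 : IsConj (wd W7) (wd W7 ^ 2) := conj7
  have c4 : IsConj (wd W7) (wd W7 ^ 4) := c2.trans (by have := isConj_pow c2 2; rwa [← pow_mul] at this)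
  have c5 : IsConj (wd W7 ^ 6) (wd W7 ^ 5) := by
    have := isConj_pow c2 6
    rwa [← pow_mul, pow_mod' o7 (2 * 6)] at this
  have c3 : IsConj (wd W7 ^ 6) (wd W7 ^ 3) := by
    have := isConj_pow c4 6
    rwa [← pow_mul, pow_mod' o7 (4 * 6)] at this
  rw [pow_mod' o7 k]
  have h1 : k % 7 < 7 := Nat.mod_lt _ (by norm_num)
  have h2 : k % 7 ≠ 0 := fun h => by
    have h4 := Nat.dvd_gcd (Nat.dvd_of_mod_eq_zero h) (dvd_refl 7)
    rw [hk] at h4
    norm_num at h4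
  generalize k % 7 = m at h1 h2
  interval_cases m
  · exact absurd rfl h2
  · rw [pow_one]; exact Or.inl (IsConj.refl _)
  · exact Or.inl c2
  · exact Or.inr c3
  · exact Or.inl c4
  · exact Or.inr c5
  · exact Or.inr (IsConj.refl _)

/-! ### Degrees -/

/-- the check of a degree -/
def P (d : ℕ) : Bool :=
  !(d % 17 == 1 || d % 17 == 16) || (Nat.blt d 42 || (d % 49 == 0 || ((d % 2 == 0 && d % 5 == 0) ||
    ((d % 2 == 0 && d % 7 == 0) || (d % 256 == 0 || d == 288)))))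

theorem list : ∀ a : Fin 10, ∀ b : Fin 3, ∀ c : Fin 2, ∀ e : Fin 3,
    P (2 ^ (a : ℕ) * (3 ^ (b : ℕ) * (5 ^ (c : ℕ) * 7 ^ (e : ℕ)))) = true := by decide +kernel

theorem P_spec {d : ℕ} (h : P d = true) (h17 : d % 17 = 1 ∨ d % 17 = 16) :
    d < 42 ∨ 49 ∣ d ∨ (2 ∣ d ∧ 5 ∣ d) ∨ (2 ∣ d ∧ 7 ∣ d) ∨ 256 ∣ d ∨ d = 288 := by
  unfold P at h
  simp only [Bool.or_eq_true, Bool.and_eq_true, Bool.not_eq_true', Bool.or_eq_false_iff, beq_iff_eq,
    beq_eq_false_iff_ne, ne_eq, Nat.blt_eq] at h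
  omega

theorem cases_of {d : ℕ} (h : d ∣ 4030387200) (h2 : ¬ 2 ^ 10 ∣ d) (h3 : ¬ 3 ^ 3 ∣ d) (h5 : ¬ 5 ^ 2 ∣ d)
    (h7 : ¬ 7 ^ 3 ∣ d) (h17 : d % 17 = 1 ∨ d % 17 = 16) :
    d < 42 ∨ 49 ∣ d ∨ (2 ∣ d ∧ 5 ∣ d) ∨ (2 ∣ d ∧ 7 ∣ d) ∨ 256 ∣ d ∨ d = 288 := by
  have e1 : d ∣ 2 ^ 9 * (3 ^ 3 * 5 ^ 2 * 7 ^ 3 * 17) := dvd_of_not Nat.prime_two (by
    rwa [show 2 ^ (9 + 1) * (3 ^ 3 * 5 ^ 2 * 7 ^ 3 * 17) = 4030387200 by norm_num]) h2
  have e2 : d ∣ 3 ^ 2 * (2 ^ 9 * 5 ^ 2 * 7 ^ 3 * 17) := dvd_of_not Nat.prime_three (by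
    rwa [show 3 ^ (2 + 1) * (2 ^ 9 * 5 ^ 2 * 7 ^ 3 * 17) = 2 ^ 9 * (3 ^ 3 * 5 ^ 2 * 7 ^ 3 * 17) by norm_num]) h3
  have e3 : d ∣ 5 ^ 1 * (2 ^ 9 * 3 ^ 2 * 7 ^ 3 * 17) := dvd_of_not Nat.prime_five (by
    rwa [show 5 ^ (1 + 1) * (2 ^ 9 * 3 ^ 2 * 7 ^ 3 * 17) = 3 ^ 2 * (2 ^ 9 * 5 ^ 2 * 7 ^ 3 * 17) by norm_num]) h5
  have e4 : d ∣ 7 ^ 2 * (2 ^ 9 * 3 ^ 2 * 5 ^ 1 * 17) := dvd_of_not (by norm_num) (by
    rwa [show 7 ^ (2 + 1) * (2 ^ 9 * 3 ^ 2 * 5 ^ 1 * 17) = 5 ^ 1 * (2 ^ 9 * 3 ^ 2 * 7 ^ 3 * 17) by norm_num]) h7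
  have e5 : d ∣ 17 ^ 0 * (2 ^ 9 * (3 ^ 2 * (5 ^ 1 * 7 ^ 2))) := dvd_of_not (by norm_num) (by
    rwa [show 17 ^ (0 + 1) * (2 ^ 9 * (3 ^ 2 * (5 ^ 1 * 7 ^ 2))) = 7 ^ 2 * (2 ^ 9 * 3 ^ 2 * 5 ^ 1 * 17) by norm_num])
      (by omega)
  rw [pow_zero, one_mul] at e5
  obtain ⟨p1, q1, hp1, hq1, r1⟩ := (Nat.dvd_mul).1 e5
  obtain ⟨a, ha, ra⟩ := (Nat.dvd_prime_pow Nat.prime_two).1 hp1
  obtain ⟨p2, q2, hp2, hq2, r2⟩ := (Nat.dvd_mul).1 hq1
  obtain ⟨b, hb, rb⟩ := (Nat.dvd_prime_pow Nat.prime_three).1 hp2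
  obtain ⟨p3, q3, hp3, hq3, r3⟩ := (Nat.dvd_mul).1 hq2
  obtain ⟨c, hc, rc⟩ := (Nat.dvd_prime_pow Nat.prime_five).1 hp3
  obtain ⟨e, he, re⟩ := (Nat.dvd_prime_pow (by norm_num)).1 hq3
  have hl := list ⟨a, by omega⟩ ⟨b, by omega⟩ ⟨c, by omega⟩ ⟨e, by omega⟩
  have hd : d = 2 ^ a * (3 ^ b * (5 ^ c * 7 ^ e)) := by rw [← r1, ← r2, ← r3, ra, rb, rc, re]
  rw [hd] at h17 ⊢
  exact P_spec hl h17

section

variable {χ : IrrCharacter Cfsg.Spor.He} {x : Cfsg.Spor.He}

theorem hford : ∀ g g' : Cfsg.Spor.He, IsConj g g' → orderOf g = orderOf g' := fun _ _ h =>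
  H604.OZ.orderOf_eq_of_conj h

/-- the inverse of 7D -/
theorem ne_seven (h : One χ x) (hn : ¬ IsConj x (wd W7)) : ¬ IsConj x (wd W7 ^ 6) := by
  intro hc
  have h1 := h.conj_pow (m := 13) (by rw [ncard]; decide)
  have h2 := isConj_pow hc 13
  rw [← pow_mul, pow_mod' o7 (6 * 13)] at h2
  have h3 := h1.trans h2
  rw [show 6 * 13 % 7 = 1 by norm_num, pow_one] at h3
  exact hn h3

theorem ex7 (h : One χ x) (hd : 7 ∣ charDegree (χ : Cfsg.Spor.He → ℂ)) (hn : ¬ IsConj x (wd W7)) :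
    ExF orderOf χ {7, 7} (2 * ((7 : ℕ) - 1) / (196 : ℕ)) := by
  have h1 := exF_two (f := orderOf) hford (y := wd W7) (j := 6) (by rw [o7]; decide)
    (by rw [pow_mod' o7 (6 * 6), show 6 * 6 % 7 = 1 by norm_num, pow_one])
    quad7 h hn (ne_seven h hn) (r := 7) (by norm_num) (k := 1) (by rw [pow_one, ← o7, pow_orderOf_eq_one]) hd cent7
  rwa [orderOf_pow, o7] at h1

theorem ex5 (h : One χ x) (hd : 5 ∣ charDegree (χ : Cfsg.Spor.He → ℂ)) (hn : ¬ IsConj x (wd W5)) :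
    ExF orderOf χ {5} (((5 : ℕ) ^ 2 - 1) / (300 : ℕ)) := by
  have h1 := exF_elt (f := orderOf) hford rat5 hn h (r := 5) (by norm_num) (k := 1)
    (by rw [pow_one, ← o5, pow_orderOf_eq_one]) hd cent5
  rwa [o5] at h1

theorem ex8 (h : One χ x) (hd : 2 ∣ charDegree (χ : Cfsg.Spor.He → ℂ)) (hn : ¬ IsConj x (wd W8)) :
    ExF orderOf χ {8} (((2 : ℕ) ^ 2 - 1) / (16 : ℕ)) := by
  have h1 := exF_elt (f := orderOf) hford rat8 hn h (r := 2) (by norm_num) (k := 3)
    (by rw [show 2 ^ 3 = 8 by norm_num, ← order_eight, pow_orderOf_eq_one]) hd card_eight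
  rwa [order_eight] at h1

theorem ex4 (h : One χ x) (hd : 2 ∣ charDegree (χ : Cfsg.Spor.He → ℂ)) (hn : ¬ IsConj x (wd W4)) :
    ExF orderOf χ {4} (((2 : ℕ) ^ 2 - 1) / (128 : ℕ)) := by
  have h1 := exF_elt (f := orderOf) hford rat4 hn h (r := 2) (by norm_num) (k := 2)
    (by rw [show 2 ^ 2 = 4 by norm_num, ← o4, pow_orderOf_eq_one]) hd cent4
  rwa [o4] at h1

/-- the 2-part of the degree divides the value at a 2-central involution -/
theorem ex2 (h : One χ x) {a : ℕ} (hd : 2 ^ a ∣ charDegree (χ : Cfsg.Spor.He → ℂ)) (hn : ¬ IsConj x (wd [.d])) :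
    ExF orderOf χ {2} ((((2 ^ a : ℕ) : ℝ) ^ 2 - 1) / (21504 : ℕ)) := by
  have hidx : (Subgroup.centralizer ({wd [.d]} : Set Cfsg.Spor.He)).index = 187425 := by
    have h1 := (Subgroup.centralizer ({wd [.d]} : Set Cfsg.Spor.He)).card_mul_index
    rw [centd, ncard] at h1
    omega
  have h1 := exF_rat (f := orderOf) hford rat2 hn h (n := 2 ^ a) (by positivity)
    (isIntegral_div_pow (a := a) (b := 0) Nat.prime_two (by rwa [add_zero]) (by rw [hidx]; decide)) centd.le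
  rwa [o2] at h1

theorem centU_dvd : 343 ∣ cent U := by
  have h1 : IsConj W U := isConj_iff.2 ⟨_, GW⟩
  rw [← cent_congr h1]
  exact dvd_card_W

theorem exU (h : One χ x) (hd : 49 ∣ charDegree (χ : Cfsg.Spor.He → ℂ)) (hn : ¬ IsConj x U) :
    ExF orderOf χ {7} (((49 : ℕ) ^ 2 - 1) / (1715 : ℕ)) := by
  have hidx : ¬ 7 ^ (0 + 1) ∣ (Subgroup.centralizer ({U} : Set Cfsg.Spor.He)).index := by
    intro h1
    have h2 := (Subgroup.centralizer ({U} : Set Cfsg.Spor.He)).card_mul_index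
    rw [ncard] at h2
    have h3 := Nat.mul_dvd_mul centU_dvd h1
    rw [show cent U * (Subgroup.centralizer ({U} : Set Cfsg.Spor.He)).index = 4030387200 from h2] at h3
    revert h3
    decide
  have h1 := exF_rat (f := orderOf) hford ratU hn h (n := 49) (by norm_num)
    (by
      have := isIntegral_div_pow (χ := χ) (y := U) (a := 2) (b := 0) (r := 7) (by norm_num) (by simpa using hd) hidx
      simpa using this) card_cent_U
  rwa [order_U] at h1

end

/-- **No irreducible character of the Held group vanishes at exactly one class.** -/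
theorem no_one {χ : IrrCharacter Cfsg.Spor.He} {x : Cfsg.Spor.He} (h : One χ x) : False := by
  have hs : IsSimpleGroup Cfsg.Spor.He := (SporadicB.HePerm.isHe_of_card_le ncard.le).1
  have h4 : 4 ≤ cent x := H604.OZ.four_le_cent h (by rw [ncard]; decide) (by rw [ncard]; decide)
  have h5 : cent x ≠ 5 := fun h5 => H604.OZ.cent_prime (H604.OZ.ne_one h)
    (show (cent x).Prime by rw [h5]; norm_num) (show cent x ^ 2 ∣ _ by rw [h5, ncard]; decide)
  have h42 := HeMin.le_deg HeMin.minDeg h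
  have hmod := mod_of_iso (p := 17) (by norm_num) (by norm_num) (by rw [ncard]; decide) (by rw [ncard]; norm_num)
    o17 card_cent_eq (n := 237081600) (by rw [ncard]) (by norm_num) h h4
  have hdvd := H604.OZ.deg_dvd χ
  rw [ncard] at hdvd
  have n2 := H604.OZ.not_dvd_deg' h (r := 2) (n := 10) (by norm_num) (by rw [ncard]; decide) (by rw [ncard]; decide)
    (g := wd [.d]) (g' := wd W8) (by rw [o2]) (by rw [order_eight]; decide) (by rw [o2, order_eight]; decide)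
  have n3 := H604.OZ.not_dvd_deg' h (r := 3) (n := 3) (by norm_num) (by rw [ncard]; decide) (by rw [ncard]; decide)
    (g := wd [.b, .c]) (g' := wd [.a, .b, .c]) (by rw [o3]) (by rw [o6]; decide) (by rw [o3, o6]; decide)
  have n5 := H604.OZ.not_dvd_deg' h (r := 5) (n := 2) (by norm_num) (by rw [ncard]; decide) (by rw [ncard]; decide)
    (g := wd W5) (g' := wd [.c, .d]) (by rw [o5]) (by rw [o10]; decide) (by rw [o5, o10]; decide)
  have n7 := H604.OZ.not_dvd_deg' h (r := 7) (n := 3) (by norm_num) (by rw [ncard]; decide) (by rw [ncard]; decide)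
    (g := wd W7) (g' := wd [.d, .c, .b, .g, .d, .g, .f]) (by rw [o7]) (by rw [o14]; decide) (by rw [o7, o14]; decide)
  have hcases := cases_of hdvd n2 n3 n5 n7 hmod
  -- the even case
  have even : 2 ∣ charDegree (χ : Cfsg.Spor.He → ℂ) →
      (5 ∣ charDegree (χ : Cfsg.Spor.He → ℂ) ∨ 7 ∣ charDegree (χ : Cfsg.Spor.He → ℂ) ∨
        2 ^ 8 ∣ charDegree (χ : Cfsg.Spor.He → ℂ) ∨ 2 ^ 5 ∣ charDegree (χ : Cfsg.Spor.He → ℂ)) → False := by
    intro hev hc
    by_cases h8 : IsConj x (wd W8)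
    · have hc16 : 16 ≤ cent x := by rw [cent_congr h8]; exact cent8_ge
      have ho : orderOf x = 8 := by rw [hford _ _ h8, order_eight]
      have hne : ∀ y : Cfsg.Spor.He, orderOf y ≠ 8 → ¬ IsConj x y := fun y hy hxy => hy (by rw [← hford _ _ hxy, ho])
      have nn5 := hne (wd W5) (by rw [o5]; norm_num)
      have nn7 := hne (wd W7) (by rw [o7]; norm_num)
      have nn4 := hne (wd W4) (by rw [o4]; norm_num)
      have nn2 := hne (wd [.d]) (by rw [o2]; norm_num)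
      rcases hc with hc | hc | hc | hc
      · exact (ex5 h hc nn5).false h hc16 (by norm_num) (by norm_num)
      · exact ((ex7 h hc nn7).union (ex4 h hev nn4) (by simp)).false h hc16 (by norm_num) (by norm_num)
      · exact (ex2 h hc nn2).false h hc16 (by norm_num) (by norm_num)
      · exact ((ex2 h hc nn2).union (ex4 h hev nn4) (by simp)).false h hc16 (by norm_num) (by norm_num)
    · have e8 := ex8 h hev h8
      have h6 : cent x < 6 := by
        by_contra hlt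
        push Not at hlt
        exact e8.false h hlt (by norm_num) (by norm_num)
      have hc4 : cent x = 4 := by omega
      have hne : ∀ y : Cfsg.Spor.He, cent y ≠ 4 → ¬ IsConj x y := fun y hy hxy => hy (by rw [← cent_congr hxy, hc4])
      have nn5 := hne (wd W5) (fun h => by
        have := orderOf_dvd_cent (wd W5)
        rw [h, o5] at this
        norm_num at this)
      have nn7 := hne (wd W7) (fun h => by
        have := orderOf_dvd_cent (wd W7)
        rw [h, o7] at this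
        norm_num at this)
      have nn4 := hne (wd W4) (fun h => by
        have : 8 ≤ cent (wd W4) := cent4_ge
        omega)
      have nn2 := hne (wd [.d]) (fun h => by
        have : cent (wd [.d]) = 21504 := centd
        omega)
      rcases hc with hc | hc | hc | hc
      · exact (e8.union (ex5 h hc nn5) (by simp)).false h h4 (by norm_num) (by norm_num)
      · exact ((e8.union (ex7 h hc nn7) (by simp)).union (ex4 h hev nn4) (by simp)).false h h4 (by norm_num)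
          (by norm_num)
      · exact (ex2 h hc nn2).false h h4 (by norm_num) (by norm_num)
      · exact ((e8.union (ex2 h hc nn2) (by simp)).union (ex4 h hev nn4) (by simp)).false h h4 (by norm_num)
          (by norm_num)
  rcases hcases with hc | hc | ⟨hev, hc⟩ | ⟨hev, hc⟩ | hc | hc
  · omega
  · by_cases hU : IsConj x U
    · have hc343 : 343 ≤ cent x := by
        rw [cent_congr hU]
        exact Nat.le_of_dvd Nat.card_pos centU_dvd
      have nn7 : ¬ IsConj x (wd W7) := fun h7 => by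
        have h1 := cent_congr h7
        have h2 : cent (wd W7) ≤ 196 := cent7
        omega
      exact (ex7 h (dvd_trans (by norm_num) hc) nn7).false h hc343 (by norm_num) (by norm_num)
    · exact (exU h hc hU).false h h4 (by norm_num) (by norm_num)
  · exact even hev (Or.inl hc)
  · exact even hev (Or.inr (Or.inl hc))
  · exact even (dvd_trans (by norm_num) hc) (Or.inr (Or.inr (Or.inl (by simpa using hc))))
  · exact even (by rw [hc]; norm_num) (Or.inr (Or.inr (Or.inr (by rw [hc]; norm_num))))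

end Cfsg.Agent.H30.OZ.HeRow

namespace Cfsg.Agent.H30.OZ

universe u

/-- **S4842, the Held group.** -/
theorem row_he {S : Type u} [Group S] [Finite S] (_hs : IsSimpleGroup S) (h : Cfsg.Spor.IsoHe S) :
    Cfsg.Agent.H730.OZ.Row S := by
  obtain ⟨e⟩ := h
  exact H730.OZ.Row.congr e (H604.OZ.row_of fun _ _ h => HeRow.no_one h)

end Cfsg.Agent.H30.OZ
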