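import Cfsg.Agent.H30.OZ.Bad
import Cfsg.Agent.H849.OZ.TFive
import Cfsg.Agent.H504.ZerosIso

/-!
# One vanishing class: tools for the rows He and Tits (helper30, S4842)

* `ExF f χ S t` : an excess of at least `t` from elements `g` with `f g ∈ S` (`f` a class function); disjoint unions;
* `mod_of_iso` : an isolated prime `p` with automizer of order less than `p - 1`: `χ 1 ≡ ± 1 mod p`;
* `dvd_of_not` : `d ∣ p ^ (k + 1) * m`, `p ^ (k + 1) ∤ d`.
-/

set_option autoImplicit false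
set_option linter.unusedSectionVars false

namespace Cfsg.Agent.H30.OZ

open Cfsg Cfsg.Agent.Characters Finset
open Cfsg.Agent.H732.VZ Cfsg.Agent.H695.OneZero

universe u

theorem dvd_of_not {p : ℕ} (hp : p.Prime) {k m d : ℕ} (h : d ∣ p ^ (k + 1) * m)
    (hd : ¬ p ^ (k + 1) ∣ d) : d ∣ p ^ k * m := by
  obtain ⟨a, b, ha, hb, rfl⟩ := (Nat.dvd_mul).1 h
  obtain ⟨i, hi, rfl⟩ := (Nat.dvd_prime_pow hp).1 ha
  refine Nat.mul_dvd_mul (pow_dvd_pow p ?_) hb
  rcases Nat.lt_succ_iff_lt_or_eq.1 (Nat.lt_succ_of_le hi) with h1 | h1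
  · omega
  · exact absurd (Dvd.intro b (by rw [h1])) hd

section

variable {G : Type u} [Group G] [Finite G] {χ : IrrCharacter G} {x : G}

open Cfsg.Agent.H504.Zeros Cfsg.Agent.H504.ZeroTI Cfsg.Agent.SmallSimple.SelfCentSum in
theorem mod_of_iso [IsSimpleGroup G] {p : ℕ} (hp : p.Prime) (h7 : 7 ≤ p) (hsq : ¬ p ^ 2 ∣ Nat.card G)
    (hG : Nat.card G ≠ p) {z : G} (hz : orderOf z = p) (hC : Nat.card (Subgroup.centralizer ({z} : Set G)) = p) {n : ℕ}
    (hn : Nat.card G = p * n) (hw : n % p ≠ p - 1) (h : One χ x) (h4 : 4 ≤ Cfsg.Agent.H604.OZ.cent x) :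
    charDegree (χ : G → ℂ) % p = 1 ∨ charDegree (χ : G → ℂ) % p = p - 1 := by
  rcases H849.OZ.iso hp h7 hsq hG hz hC h h4 with h1 | h1 | ⟨-, -, -, h1⟩
  · exact Or.inl h1
  · exact Or.inr h1
  exfalso
  have hfact : Fact p.Prime := ⟨hp⟩
  have hA : CC (Subgroup.zpowers z) := cc_of_prime hp hz hC
  have cA : Nat.card (Subgroup.zpowers z) = p := by rw [Nat.card_zpowers, hz]
  have he : eIdx (Subgroup.zpowers z) = n % p := by
    rw [eIdx_eq_mod hA (by rw [cA]; exact hp.one_lt) (n := n) (by rw [hn, cA]), cA]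
  obtain ⟨m, hm⟩ := hA.dvd
  rw [cA] at hm
  obtain ⟨s, hs, hs2, hsA⟩ := exists_reps (m := m) hA (by rw [cA]; have := hp.one_lt; omega)
  have hord : ∀ a ∈ Subgroup.zpowers z, a ≠ 1 → orderOf a = p := by
    intro a ha ha1
    have h1 : orderOf a ∣ p := by
      have := orderOf_dvd_natCard (⟨a, ha⟩ : Subgroup.zpowers z)
      rwa [← Subgroup.orderOf_coe, cA] at this
    rcases (Nat.dvd_prime hp).1 h1 with h | h
    · exact absurd (orderOf_eq_one_iff.1 h) ha1
    · exact h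
  have hm1 : m ≤ 1 := by
    rw [← hs2]
    refine Finset.card_le_one.2 fun a ha b hb => hs a ha b hb ?_
    exact (h1 a (hord a (hsA a ha).1 (hsA a ha).2)).symm.trans (h1 b (hord b (hsA b hb).1 (hsA b hb).2))
  have hm2 : m = 1 := by
    rcases Nat.lt_or_ge 0 m with h2 | h2
    · omega
    · have h3 : m = 0 := by omega
      rw [h3, mul_zero] at hm
      have := hp.one_lt
      omega
  rw [hm2, mul_one, he] at hm
  exact hw hm.symm

end

variable {G : Type u} [Group G] [Fintype G] {χ : IrrCharacter G} {x : G} {ι : Type*}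

/-- an excess of at least `t` from elements `g` with `f g ∈ S` -/
def ExF (f : G → ι) (χ : IrrCharacter G) (S : Set ι) (t : ℝ) : Prop :=
  ∃ Y : Finset G, Ex χ Y t ∧ ∀ g ∈ Y, f g ∈ S

theorem ExF.union {f : G → ι} {S S' : Set ι} {t t' : ℝ} (h : ExF f χ S t) (h' : ExF f χ S' t') (hd : Disjoint S S') :
    ExF f χ (S ∪ S') (t + t') := by
  classical
  obtain ⟨Y, hY, hS⟩ := h
  obtain ⟨Y', hY', hS'⟩ := h'
  refine ⟨Y ∪ Y', hY.union hY' ?_, fun g hg => ?_⟩
  · rw [Finset.disjoint_left]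
    intro g hg hg'
    exact Set.disjoint_left.1 hd (hS g hg) (hS' g hg')
  · rcases mem_union.1 hg with hg | hg
    · exact Or.inl (hS g hg)
    · exact Or.inr (hS' g hg)

theorem ExF.false {f : G → ι} {S : Set ι} {t : ℝ} (hY : ExF f χ S t) (h : One χ x) {c : ℕ} (hc : c ≤ cent x)
    (ht : 0 ≤ t) (hct : 1 < (c : ℝ) * t) : False := by
  obtain ⟨Y, hY, -⟩ := hY
  exact hY.false h hc ht hct

theorem ExF.cent_le {f : G → ι} {S : Set ι} {t : ℝ} (hY : ExF f χ S t) (h : One χ x) : (cent x : ℝ) * t ≤ 1 := by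
  obtain ⟨Y, hY, -⟩ := hY
  exact hY.cent_le h

/-- `ex_rat` -/
theorem exF_rat {f : G → ι} (hf : ∀ g g', IsConj g g' → f g = f g') {y : G}
    (hy : ∀ k : ℕ, k.Coprime (orderOf y) → IsConj y (y ^ k)) (h0 : ¬ IsConj x y) (h : One χ x)
    {n : ℕ} (hn : 0 < n) (hint : IsIntegral ℤ ((χ : G → ℂ) y / n)) {B : ℕ} (hB : cent y ≤ B) :
    ExF f χ {f y} (((n : ℝ) ^ 2 - 1) / B) := by
  refine ⟨cls y, ex_rat (fun k hk => hy k (Nat.Coprime.coprime_dvd_right (orderOf_dvd_natCard y) hk)) (ne_of_one h h0)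
    hn hint hB, fun g hg => ?_⟩
  rw [Set.mem_singleton_iff]
  exact (hf _ _ (mem_cls.1 hg)).symm

/-- `ex_two` -/
theorem exF_two {f : G → ι} (hf : ∀ g g', IsConj g g' → f g = f g') {y : G} {j : ℕ} (hj : j.Coprime (orderOf y))
    (hjj : IsConj y (y ^ (j * j)))
    (hy : ∀ k : ℕ, k.Coprime (orderOf y) → IsConj y (y ^ k) ∨ IsConj (y ^ j) (y ^ k))
    (h : One χ x) (h0 : ¬ IsConj x y) (h0' : ¬ IsConj x (y ^ j))
    {r : ℕ} (hr : r.Prime) {k : ℕ} (hyr : y ^ r ^ k = 1) (hd : r ∣ charDegree (χ : G → ℂ)) {B : ℕ} (hB : cent y ≤ B) :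
    ExF f χ {f y, f (y ^ j)} (2 * ((r : ℝ) - 1) / B) := by
  classical
  refine ⟨cls y ∪ cls (y ^ j), ex_two hj hjj hy (ne_of_one h h0) (ne_of_one h h0') hr hyr hd hB, fun g hg => ?_⟩
  rw [Set.mem_insert_iff, Set.mem_singleton_iff]
  rcases mem_union.1 hg with hg | hg
  · exact Or.inl (hf _ _ (mem_cls.1 hg)).symm
  · exact Or.inr (hf _ _ (mem_cls.1 hg)).symm

/-- rational `r`-elements, `r ∣ χ 1` -/
theorem exF_elt {f : G → ι} (hf : ∀ g g', IsConj g g' → f g = f g') {y : G}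
    (hy : ∀ k : ℕ, k.Coprime (orderOf y) → IsConj y (y ^ k)) (h0 : ¬ IsConj x y) (h : One χ x)
    {r : ℕ} (hr : r.Prime) {k : ℕ} (hyr : y ^ r ^ k = 1) (hd : r ∣ charDegree (χ : G → ℂ)) {B : ℕ} (hB : cent y ≤ B) :
    ExF f χ {f y} (((r : ℝ) ^ 2 - 1) / B) :=
  exF_rat hf hy h0 h hr.pos (isIntegral_div_of_elt (fun k hk => hy k (Nat.Coprime.coprime_dvd_right
    (orderOf_dvd_natCard y) hk)) hr hyr hd) hB

/-- conjugate elements have centralizers of the same order -/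
theorem cent_congr {G : Type u} [Group G] {a b : G} (h : IsConj a b) : cent a = cent b := by
  obtain ⟨c, rfl⟩ := isConj_iff.1 h
  have h2 : Subgroup.centralizer ({c * a * c⁻¹} : Set G) =
      (Subgroup.centralizer ({a} : Set G)).map (MulAut.conj c).toMonoidHom := by
    ext g
    rw [Subgroup.mem_centralizer_singleton_iff, Subgroup.mem_map]
    constructor
    · intro h
      refine ⟨c⁻¹ * g * c, ?_, by simp [mul_assoc]⟩
      rw [Subgroup.mem_centralizer_singleton_iff]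
      calc c⁻¹ * g * c * a = c⁻¹ * (g * (c * a * c⁻¹)) * c := by group
        _ = c⁻¹ * ((c * a * c⁻¹) * g) * c := by rw [h]
        _ = a * (c⁻¹ * g * c) := by group
    · rintro ⟨g', hg', rfl⟩
      rw [Subgroup.mem_centralizer_singleton_iff] at hg'
      simp only [MulEquiv.coe_toMonoidHom, MulAut.conj_apply]
      calc c * g' * c⁻¹ * (c * a * c⁻¹) = c * (g' * a) * c⁻¹ := by group
        _ = c * (a * g') * c⁻¹ := by rw [hg']
        _ = c * a * c⁻¹ * (c * g' * c⁻¹) := by group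
  unfold cent
  rw [h2, Subgroup.card_map_of_injective (MulEquiv.injective _)]

/-- the centralizer of `y` contains `y` -/
theorem orderOf_dvd_cent {G : Type u} [Group G] (y : G) : orderOf y ∣ cent y := by
  rw [← Nat.card_zpowers]
  refine Subgroup.card_dvd_of_le ?_
  rw [Subgroup.zpowers_le, Subgroup.mem_centralizer_singleton_iff]

end Cfsg.Agent.H30.OZ
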